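-- S1437 team project, package PK3: the fixed point group `N ∩ C(K)` lies in `O_q(N)`
-- (landed S1445 in the group `↥(N ⊔ K)`).
import Mathlib
import Cfsg.Prelude.Def_OddOrderLocal
import Cfsg.Agent.Lib.Helper6.BG.S1437Defs
import Cfsg.Agent.S1445
import Cfsg.Agent.Lib.Helper1.FittingPrimary
import Cfsg.Agent.Lib.Helper23.Transport
import Cfsg.Agent.Lib.Helper55.Cores
import Cfsg.Agent.Lib.Helper67.BG.FitUtil
import Cfsg.Agent.Lib.Helper22.Fstar

set_option autoImplicit false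

namespace Cfsg.Agent.Lib.Helper23.BG37

universe u

open Subgroup

/-- Package PK3 of the S1437 project. -/
theorem pk3 : Cfsg.Agent.Lib.Helper6.BG37.PK3.{u} := by
  intro G _ _ q N K hcfg
  obtain ⟨hq, hKN, hsolv, hodd, hcop, hK1, hfix, hKs, hNK, hnn⟩ := hcfg
  classical
  have hqF : Fact q.Prime := ⟨hq⟩
  obtain ⟨H, hHdef⟩ : ∃ H : Subgroup G, H = N ⊔ K := ⟨_, rfl⟩
  rw [← hHdef] at hsolv hodd
  have hNH : N ≤ H := by rw [hHdef]; exact le_sup_left
  have hKH : K ≤ H := by rw [hHdef]; exact le_sup_right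
  obtain ⟨N', hN'def⟩ : ∃ N' : Subgroup ↥H, N' = N.subgroupOf H := ⟨_, rfl⟩
  obtain ⟨K', hK'def⟩ : ∃ K' : Subgroup ↥H, K' = K.subgroupOf H := ⟨_, rfl⟩
  have memN' : ∀ y : ↥H, y ∈ N' ↔ (y : G) ∈ N := by
    intro y; rw [hN'def]; exact Subgroup.mem_subgroupOf
  have memK' : ∀ y : ↥H, y ∈ K' ↔ (y : G) ∈ K := by
    intro y; rw [hK'def]; exact Subgroup.mem_subgroupOf
  have hHnorm : H ≤ normalizer (N : Set G) := by
    rw [hHdef]; exact sup_le le_normalizer hKN
  have hN'n : N'.Normal := by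
    rw [hN'def]
    exact (Subgroup.normal_subgroupOf_iff_le_normalizer hNH).mpr hHnorm
  have hsup : N' ⊔ K' = ⊤ := by
    rw [hN'def, hK'def, ← Subgroup.subgroupOf_sup hNH hKH, ← hHdef]
    exact Subgroup.subgroupOf_self (H := H)
  have hcardN : Nat.card N' = Nat.card N := by
    rw [hN'def]; exact Nat.card_congr (Subgroup.subgroupOfEquivOfLe hNH).toEquiv
  have hcardK : Nat.card K' = Nat.card K := by
    rw [hK'def]; exact Nat.card_congr (Subgroup.subgroupOfEquivOfLe hKH).toEquiv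
  have hcop' : (Nat.card N').Coprime (Nat.card K') := by rw [hcardN, hcardK]; exact hcop
  have T1 : ∀ (x y : ↥H), y ∈ N' ⊓ centralizer ({x} : Set ↥H) ↔
      (y : G) ∈ N ⊓ centralizer ({(x : G)} : Set G) := by
    intro x y
    rw [Subgroup.mem_inf, Subgroup.mem_inf, Subgroup.mem_centralizer_iff,
      Subgroup.mem_centralizer_iff]
    constructor
    · rintro ⟨h1, h2⟩
      refine ⟨(memN' y).mp h1, ?_⟩
      intro h hh
      rw [Set.mem_singleton_iff] at hh
      rw [hh]
      have h3 := h2 x (Set.mem_singleton x)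
      exact congrArg Subtype.val h3
    · rintro ⟨h1, h2⟩
      refine ⟨(memN' y).mpr h1, ?_⟩
      intro h hh
      rw [Set.mem_singleton_iff] at hh
      rw [hh]
      exact Subtype.ext (h2 (x : G) (Set.mem_singleton _))
  have T2 : ∀ (y : ↥H), y ∈ N' ⊓ centralizer (K' : Set ↥H) ↔
      (y : G) ∈ N ⊓ centralizer (K : Set G) := by
    intro y
    rw [Subgroup.mem_inf, Subgroup.mem_inf, Subgroup.mem_centralizer_iff,
      Subgroup.mem_centralizer_iff]
    constructor
    · rintro ⟨h1, h2⟩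
      refine ⟨(memN' y).mp h1, ?_⟩
      intro k hk
      have h3 := h2 ⟨k, hKH hk⟩ ((memK' _).mpr hk)
      exact congrArg Subtype.val h3
    · rintro ⟨h1, h2⟩
      refine ⟨(memN' y).mpr h1, ?_⟩
      intro k hk
      exact Subtype.ext (h2 (k : G) ((memK' k).mp hk))
  have hprime' : ∀ x ∈ K', x ≠ 1 →
      N' ⊓ centralizer ({x} : Set ↥H) = N' ⊓ centralizer (K' : Set ↥H) := by
    intro x hx hx1
    ext y
    rw [T1, T2]
    have hxG1 : (x : G) ≠ 1 := by
      intro h
      exact hx1 (Subtype.ext h)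
    rw [hfix (x : G) ((memK' x).mp hx) hxG1]
  have hFK : Cfsg.fittingOf N' ≤ N' := Cfsg.Agent.Lib.Helper67.BG.fittingOf_le N'
  by_cases hF : Cfsg.fittingOf N' ⊓ centralizer (K' : Set ↥H) = ⊥
  · exfalso
    apply hnn
    have h1 : ⁅N', K'⁆ ≤ Cfsg.fittingOf N' :=
      Cfsg.Agent.S1445.result hodd N' K' hsup hcop' hprime' hF
    have h2 : ⁅N', K'⁆ = N' := by
      apply Subgroup.map_injective H.subtype_injective
      rw [Subgroup.map_commutator, hN'def, hK'def, Subgroup.map_subgroupOf_eq_of_le hNH,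
        Subgroup.map_subgroupOf_eq_of_le hKH, hNK]
    rw [h2] at h1
    have h3 : Group.IsNilpotent ↥N' :=
      Cfsg.Agent.Lib.Helper22.isNilpotent_of_le h1
        (Cfsg.Agent.Lib.Helper67.BG.fittingOf_isNilpotent N')
    rw [hN'def] at h3
    exact Group.nilpotent_of_mulEquiv (Subgroup.subgroupOfEquivOfLe hNH)
  · rw [Subgroup.eq_bot_iff_forall] at hF
    push Not at hF
    obtain ⟨x, hx, hx1⟩ := hF
    obtain ⟨hxF, hxC⟩ := hx
    obtain ⟨f, hf, hfx⟩ := hxF
    have hfx' : (f : ↥H) = x := hfx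
    have hxKs : (x : G) ∈ N ⊓ centralizer (K : Set G) := (T2 x).mp ⟨hFK ⟨f, hf, hfx⟩, hxC⟩
    have hxG1 : (x : G) ≠ 1 := by
      intro h
      exact hx1 (Subtype.ext h)
    have hxq : (x : G) ^ q = 1 := by
      have h1 : (⟨(x : G), hxKs⟩ : ↥(N ⊓ centralizer (K : Set G))) ^ q = 1 := by
        rw [← hKs]; exact pow_card_eq_one'
      have h2 := congrArg Subtype.val h1
      simpa using h2
    have hfq : f ^ q ^ 1 = 1 := by
      rw [pow_one]
      apply Subtype.ext
      apply Subtype.ext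
      rw [Subgroup.coe_pow, Subgroup.coe_pow, hfx']
      simpa using hxq
    have hfP : f ∈ Cfsg.pCore q ↥N' := Cfsg.Agent.Lib.Helper1.mem_pCore_of_mem_fitting f hf 1 hfq
    obtain ⟨P, hPdef⟩ : ∃ P : Subgroup ↥H, P = (Cfsg.pCore q ↥N').map N'.subtype := ⟨_, rfl⟩
    have hPn : P.Normal := by
      rw [hPdef]
      have := Cfsg.Agent.Lib.Helper23.pCore_characteristic q ↥N'
      exact ConjAct.normal_of_characteristic_of_normal
    have hPN' : P ≤ N' := by
      rw [hPdef]; exact Subgroup.map_subtype_le _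
    have hPq : IsPGroup q P := by
      rw [hPdef]; exact (Cfsg.Agent.Lib.Helper55.pCore_isPGroup q ↥N').map _
    have hxP : x ∈ P := by
      rw [hPdef]; exact ⟨f, hfP, hfx⟩
    have hHQ : H ≤ normalizer ((P.map H.subtype : Subgroup G) : Set G) := by
      rw [Subgroup.le_normalizer_iff]
      rintro h hh _ ⟨p, hp, rfl⟩
      exact ⟨⟨h, hh⟩ * p * ⟨h, hh⟩⁻¹, hPn.conj_mem p hp ⟨h, hh⟩, rfl⟩
    refine ⟨P.map H.subtype, ?_, hPq.map _, hNH.trans hHQ, hKH.trans hHQ, ?_⟩
    · rintro _ ⟨p, hp, rfl⟩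
      exact (memN' p).mp (hPN' hp)
    · -- `N ∩ C(K)` has prime order `q` and contains `x ≠ 1`
      have hzle : zpowers (x : G) ≤ N ⊓ centralizer (K : Set G) := by
        rw [Subgroup.zpowers_le]; exact hxKs
      have hord : orderOf (x : G) = q := by
        have h1 : orderOf (x : G) ∣ q := orderOf_dvd_of_pow_eq_one hxq
        rcases (Nat.dvd_prime hq).mp h1 with h | h
        · exact absurd (orderOf_eq_one_iff.mp h) hxG1
        · exact h
      have heq : zpowers (x : G) = N ⊓ centralizer (K : Set G) := by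
        apply Subgroup.eq_of_le_of_card_ge hzle
        rw [Nat.card_zpowers, hord, hKs]
      rw [← heq, Subgroup.zpowers_le]
      exact ⟨x, hxP, rfl⟩

end Cfsg.Agent.Lib.Helper23.BG37
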